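import Cfsg.Agent.H911.SLTwoGen
import Cfsg.Agent.ClassicalGeometry.PSL2Basic

/-!
# The Borel subgroup and the Weyl element of `PSL₂(K)` in characteristic 2 (helper763)
-/

set_option autoImplicit false

namespace Cfsg.Agent.H763.JM.PslChar

open Matrix Subgroup Cfsg.Agent.H911.SLTwo

variable {K : Type*} [Field K]

/-- the unipotent matrices and the matrix `ww` generate -/
theorem gen {S : Subgroup (SpecialLinearGroup (Fin 2) K)} (hU : ∀ x : K, U x ∈ S)
    (hw : (ww : SpecialLinearGroup (Fin 2) K) ∈ S) : S = ⊤ := by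
  have hLo : ∀ x : K, Lo x ∈ S := by
    intro x
    have h1 : Lo x = ww⁻¹ * U (-x) * ww := by
      apply ext' <;> simp only [m00, m01, m10, m11, i00, i01, i10, i11, U00, U01, U10, U11, Lo00, Lo01, Lo10, Lo11,
        ww00, ww01, ww10, ww11] <;> ring
    rw [h1]
    exact mul_mem (mul_mem (inv_mem hw) (hU _)) hw
  have key : ∀ g : SpecialLinearGroup (Fin 2) K, g.1 1 0 ≠ 0 → g ∈ S := by
    intro g hg
    have hdet := det_eq g
    have h1 : g = U ((g.1 0 0 - 1) / g.1 1 0) * Lo (g.1 1 0) * U ((g.1 1 1 - 1) / g.1 1 0) := by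
      apply ext' <;> simp only [m00, m01, m10, m11, U00, U01, U10, U11, Lo00, Lo01, Lo10, Lo11]
      · field_simp
        ring
      · field_simp
        linear_combination (-1 : K) * hdet
      · ring
      · field_simp
        ring
    rw [h1]
    exact mul_mem (mul_mem (hU _) (hLo _)) (hU _)
  rw [eq_top_iff]
  rintro g -
  by_cases h10 : g.1 1 0 = 0
  · have hdet := det_eq g
    have h11 : g.1 1 1 ≠ 0 := by
      intro h
      rw [h10, h, mul_zero, mul_zero, sub_zero] at hdet
      exact zero_ne_one hdet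
    have h1 : g * Lo 1 ∈ S := by
      apply key
      rw [m10, Lo00, Lo10, h10]
      simpa using h11
    have h2 := mul_mem h1 (inv_mem (hLo 1))
    rwa [mul_inv_cancel_right] at h2
  · exact key g h10

/-- the unipotent subgroup -/
def uh : Multiplicative K →* SpecialLinearGroup (Fin 2) K where
  toFun x := U x.toAdd
  map_one' := U_zero
  map_mul' _ _ := (U_mul _ _).symm

theorem uh_injective : Function.Injective (uh : Multiplicative K →* SpecialLinearGroup (Fin 2) K) := by
  intro x y h
  have h1 : (U x.toAdd : SpecialLinearGroup (Fin 2) K).1 0 1 = (U y.toAdd : SpecialLinearGroup (Fin 2) K).1 0 1 :=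
    congrArg (fun g : SpecialLinearGroup (Fin 2) K => g.1 0 1) h
  rw [U01, U01] at h1
  exact h1

/-- the torus -/
def th : Kˣ →* SpecialLinearGroup (Fin 2) K where
  toFun s := hh s
  map_one' := hh_one
  map_mul' s t := (hh_mul s t).symm

theorem th_injective : Function.Injective (th : Kˣ →* SpecialLinearGroup (Fin 2) K) := by
  intro x y h
  have h1 : (hh x : SpecialLinearGroup (Fin 2) K).1 0 0 = (hh y : SpecialLinearGroup (Fin 2) K).1 0 0 :=
    congrArg (fun g : SpecialLinearGroup (Fin 2) K => g.1 0 0) h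
  rw [hh00, hh00] at h1
  exact Units.ext h1

theorem th_norm : (th : Kˣ →* SpecialLinearGroup (Fin 2) K).range ≤
    normalizer ((uh : Multiplicative K →* SpecialLinearGroup (Fin 2) K).range : Set (SpecialLinearGroup (Fin 2) K)) := by
  have h0 : ∀ x : K, U x ∈ (uh : Multiplicative K →* SpecialLinearGroup (Fin 2) K).range := fun x =>
    ⟨Multiplicative.ofAdd x, rfl⟩
  have h1 : ∀ (s : Kˣ), ∀ g ∈ (uh : Multiplicative K →* SpecialLinearGroup (Fin 2) K).range,
      hh s * g * (hh s)⁻¹ ∈ (uh : Multiplicative K →* SpecialLinearGroup (Fin 2) K).range := by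
    rintro s g ⟨x, hx⟩
    have hg : g = U x.toAdd := hx.symm
    rw [hg, hU]
    exact h0 _
  rintro _ ⟨s, rfl⟩
  change hh s ∈ _
  rw [mem_normalizer_iff]
  intro g
  refine ⟨h1 s g, fun h => ?_⟩
  have h2 := h1 s⁻¹ _ h
  rw [← hh_inv] at h2
  have h3 : (hh s)⁻¹ * (hh s * g * (hh s)⁻¹) * ((hh s)⁻¹)⁻¹ = g := by group
  rwa [h3] at h2

theorem sup_eq : (uh : Multiplicative K →* SpecialLinearGroup (Fin 2) K).range ⊔
    (th : Kˣ →* SpecialLinearGroup (Fin 2) K).range ⊔ zpowers (ww : SpecialLinearGroup (Fin 2) K) = ⊤ := by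
  apply gen
  · intro x
    have h1 : U x ∈ (uh : Multiplicative K →* SpecialLinearGroup (Fin 2) K).range := ⟨Multiplicative.ofAdd x, rfl⟩
    exact le_sup_left (a := _) (b := zpowers (ww : SpecialLinearGroup (Fin 2) K))
      (le_sup_left (b := (th : Kˣ →* SpecialLinearGroup (Fin 2) K).range) h1)
  · exact le_sup_right (a := (uh : Multiplicative K →* SpecialLinearGroup (Fin 2) K).range ⊔
      (th : Kˣ →* SpecialLinearGroup (Fin 2) K).range) (mem_zpowers _)

theorem ww_ww (h2 : (2 : K) = 0) : (ww : SpecialLinearGroup (Fin 2) K) * ww = 1 := by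
  have h3 : (-1 : K) = 1 := by linear_combination -h2
  apply ext' <;> simp only [m00, m01, m10, m11, ww00, ww01, ww10, ww11, o00, o01, o10, o11, h3] <;> ring

/-- the projection is an isomorphism in characteristic 2 -/
theorem exists_equiv (h2 : (2 : K) = 0) :
    Nonempty (SpecialLinearGroup (Fin 2) K ≃* ProjectiveSpecialLinearGroup (Fin 2) K) := by
  refine ⟨MulEquiv.ofBijective (QuotientGroup.mk' _) ⟨?_, QuotientGroup.mk'_surjective _⟩⟩
  rw [injective_iff_map_eq_one]
  intro A hA
  rw [QuotientGroup.mk'_apply, QuotientGroup.eq_one_iff,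
    Cfsg.Agent.ClassicalGeometry.PSL2Basic.mem_center_SL2_iff] at hA
  rcases hA with h | h
  · exact h
  · rw [h, Cfsg.Agent.ClassicalGeometry.PSL2Basic.neg_one_eq_one_SL2 h2]

/-- **the Borel subgroup and an involution inverting the torus, in a subgroup isomorphic to `L₂(32)`** -/
theorem exists_data {G : Type*} [Group G] {S : Subgroup G} {F : Type*} [Field F] [Fintype F]
    (h : Fintype.card F = 32) (e : S ≃* ProjectiveSpecialLinearGroup (Fin 2) F) : Nat.card S = 32736 ∧
    ∃ (P T : Subgroup G) (w : G), Nat.card P = 31 ∧ Nat.card T = 32 ∧ P ≤ normalizer (T : Set G) ∧ w * w = 1 ∧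
      (∀ p ∈ P, w * p * w⁻¹ = p⁻¹) ∧ T ⊔ P ⊔ zpowers w = S := by
  classical
  have heven : Even (Fintype.card F) := by rw [h]; decide
  have h2 : (2 : F) = 0 := by
    by_contra h0
    exact (Nat.not_even_iff_odd.2
      ((Cfsg.Agent.ClassicalGeometry.PSL2Basic.two_ne_zero_iff_odd F).1 h0)) heven
  obtain ⟨e0⟩ := exists_equiv h2
  refine ⟨?_, ?_⟩
  · rw [Nat.card_congr e.toEquiv, Cfsg.Agent.ClassicalGeometry.PSL2Basic.card_PSL2_even F heven, h]
    norm_num
  let f : SpecialLinearGroup (Fin 2) F ≃* S := e0.trans e.symm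
  let g : SpecialLinearGroup (Fin 2) F →* G := S.subtype.comp f.toMonoidHom
  have hg : Function.Injective g := S.subtype_injective.comp f.injective
  have hr : g.range = S := by
    have h1 : g.range = (f.toMonoidHom.range).map S.subtype := (MonoidHom.map_range _ _).symm
    rw [h1, MonoidHom.range_eq_top.2 f.surjective, ← MonoidHom.range_eq_map, range_subtype]
  refine ⟨(th : Fˣ →* SpecialLinearGroup (Fin 2) F).range.map g,
    (uh : Multiplicative F →* SpecialLinearGroup (Fin 2) F).range.map g, g ww, ?_, ?_, ?_, ?_, ?_, ?_⟩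
  · rw [Subgroup.card_map_of_injective hg, ← Nat.card_congr (MonoidHom.ofInjective th_injective).toEquiv,
      Nat.card_eq_fintype_card, Fintype.card_units, h]
  · rw [Subgroup.card_map_of_injective hg, ← Nat.card_congr (MonoidHom.ofInjective uh_injective).toEquiv]
    rw [Nat.card_congr (Multiplicative.toAdd : Multiplicative F ≃ F), Nat.card_eq_fintype_card, h]
  · exact (Subgroup.map_mono th_norm).trans (Subgroup.le_normalizer_map g)
  · rw [← map_mul, ww_ww h2, map_one]
  · rintro _ ⟨_, ⟨s, rfl⟩, rfl⟩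
    rw [← map_mul, ← map_inv, ← map_mul, ← map_inv]
    congr 1
    change ww * hh s * ww⁻¹ = (hh s)⁻¹
    rw [wh, hh_inv]
  · rw [← Subgroup.map_sup, ← MonoidHom.map_zpowers, ← Subgroup.map_sup, sup_eq, ← MonoidHom.range_eq_map, hr]

end Cfsg.Agent.H763.JM.PslChar
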