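import Cfsg.Agent.H763.JM.XZero
import Cfsg.Agent.H763.JM.PslChar

/-!
# S5580, Part III: one class of maximal subgroups of `J4` with socle `L₂(32)` (helper763)
-/

set_option autoImplicit false

namespace Cfsg.Agent.H763.JM

open Subgroup Cfsg Cfsg.Agent.H860.JM
open Cfsg.Agent.H763.JM.L32Words

/-- the group `Spor.J4` -/
local notation "𝒢" => Cfsg.Spor.J4

/-- conjugacy of subgroups of order 31 in a subgroup -/
theorem exists_conj_in {N P P' : Subgroup 𝒢} (hN : P ≤ N) (hN' : P' ≤ N) (hP : Nat.card P = 31)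
    (hP' : Nat.card P' = 31) : ∃ n ∈ N, cj n P = P' := by
  have := finite_J
  have h31 : Fact (Nat.Prime 31) := ⟨p31⟩
  have h1 : ¬ 31 * 31 ∣ Nat.card N := fun h =>
    Cfsg.Agent.H859.BigCent.sq_not_dvd (by simp) (h.trans (Subgroup.card_subgroup_dvd_card N))
  obtain ⟨n, hn⟩ := Cfsg.Agent.H859.PrimeSub.exists_conj (P := P.subgroupOf N) (P' := P'.subgroupOf N)
    (by rw [Nat.card_congr (subgroupOfEquivOfLe hN).toEquiv, hP])
    (by rw [Nat.card_congr (subgroupOfEquivOfLe hN').toEquiv, hP']) h1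
  refine ⟨n, n.2, ?_⟩
  ext x
  rw [mem_cj]
  constructor
  · intro hx
    have h2 : (⟨_, hN hx⟩ : N) ∈ P.subgroupOf N := hx
    have h3 := mem_map_of_mem (MulAut.conj n).toMonoidHom h2
    rw [hn, mem_subgroupOf] at h3
    have h4 : ((n : 𝒢) * ((n : 𝒢)⁻¹ * x * n) * (n : 𝒢)⁻¹) ∈ P' := h3
    have h5 : (n : 𝒢) * ((n : 𝒢)⁻¹ * x * n) * (n : 𝒢)⁻¹ = x := by group
    rwa [h5] at h4
  · intro hx
    have h2 : (⟨x, hN' hx⟩ : N) ∈ P'.subgroupOf N := hx
    rw [← hn] at h2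
    obtain ⟨y, hy, hyx⟩ := h2
    have h3 : (n : 𝒢) * y * (n : 𝒢)⁻¹ = x := congrArg Subtype.val hyx
    have h4 : (n : 𝒢)⁻¹ * x * n = y := by rw [← h3]; group
    rw [h4]
    exact hy

/-- `w` inverts `P` -/
theorem inverts_cj {P : Subgroup 𝒢} {w : 𝒢} (h : ∀ p ∈ P, w * p * w⁻¹ = p⁻¹) (g : 𝒢) :
    ∀ p ∈ cj g P, (g * w * g⁻¹) * p * (g * w * g⁻¹)⁻¹ = p⁻¹ := by
  intro p hp
  have h1 := h _ (mem_cj.1 hp)
  calc (g * w * g⁻¹) * p * (g * w * g⁻¹)⁻¹ = g * (w * (g⁻¹ * p * g) * w⁻¹) * g⁻¹ := by group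
    _ = p⁻¹ := by rw [h1]; group

theorem s_inv : s⁻¹ = s := inv_eq_of_mul_eq_one_left s_s

theorem s_pow (m : ℕ) : s * f ^ m * s = (f ^ m)⁻¹ := by
  induction m with
  | zero => rw [pow_zero, mul_one, s_s, inv_one]
  | succ m ih =>
    calc s * f ^ (m + 1) * s = s * f ^ m * (s * s) * f * s := by rw [s_s, pow_succ]; group
      _ = (s * f ^ m * s) * (s * f * s) := by group
      _ = (f ^ (m + 1))⁻¹ := by rw [ih, s_f, pow_succ']; group

/-- the involutions inverting `P₀` are conjugate under `P₀` -/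
theorem exists_pow {w : 𝒢} (hw : ∀ p ∈ P0, w * p * w⁻¹ = p⁻¹) : ∃ j : ℕ, f ^ j * w * (f ^ j)⁻¹ = s := by
  classical
  have := finite_J
  have h1 : s * w ∈ centralizer ((P0 : Subgroup 𝒢) : Set 𝒢) := by
    rw [P0, Cfsg.Agent.H858.NormC.centralizer_zpowers, mem_centralizer_singleton_iff]
    have h2 := hw f (mem_zpowers f)
    rw [mul_inv_eq_iff_eq_mul] at h2
    have h3 : s * f⁻¹ = f * s := by
      have h4 := s_f
      rw [← h4, ← mul_assoc, ← mul_assoc, s_s, one_mul]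
    rw [mul_assoc, h2, ← mul_assoc, h3, mul_assoc]
  rw [cent31 card_P0, P0, mem_zpowers_iff_mem_range_orderOf, Finset.mem_image] at h1
  obtain ⟨k, -, hk⟩ := h1
  have h2 : w = s * f ^ k := by rw [hk, ← mul_assoc, s_s, one_mul]
  refine ⟨16 * k, ?_⟩
  have h3 : f ^ (16 * k) * s = s * (f ^ (16 * k))⁻¹ := by
    rw [← s_pow, ← mul_assoc, ← mul_assoc, s_s, one_mul]
  have h4 : f ^ (16 * k) * f ^ (16 * k) = f ^ k := by
    rw [← pow_add, show 16 * k + 16 * k = 31 * k + k by ring, pow_add, pow_mul, f_pow, one_pow, one_mul]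
  rw [h2, ← mul_assoc, h3, ← h4]
  group

/-- the subgroup `L₂(32)` -/
noncomputable def SW : Subgroup 𝒢 := Ag ⊔ P0 ⊔ zpowers s

theorem cj_sup (g : 𝒢) (A B : Subgroup 𝒢) : cj g (A ⊔ B) = cj g A ⊔ cj g B := Subgroup.map_sup _ _ _

theorem cj_zpowers (g w : 𝒢) : cj g (zpowers w) = zpowers (g * w * g⁻¹) :=
  MonoidHom.map_zpowers (MulAut.conj g).toMonoidHom w

/-- **a subgroup `L₂(32)` is conjugate to `SW`** -/
theorem exists_std (hF : Facts geo) {S : Subgroup 𝒢} {F : Type} [Field F] [Fintype F]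
    (h : Fintype.card F = 32) (e : S ≃* Matrix.ProjectiveSpecialLinearGroup (Fin 2) F) :
    ∃ g : 𝒢, cj g S = SW := by
  have := finite_J
  have := simple_J
  obtain ⟨hS, P, T, w, hP, hT, hPT, -, hwp, hsup⟩ := PslChar.exists_data h e
  have hT2 : IsPGroup 2 T := IsPGroup.of_card (n := 5) (by rw [hT]; norm_num)
  have hT1 : T ≠ ⊥ := by
    rintro rfl
    rw [Subgroup.card_bot] at hT
    norm_num at hT
  obtain ⟨X, hX, hPX, hTX⟩ := exists_X hF hP hT2 hT1 hPT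
  have hX0 := xc_X0 hF
  obtain ⟨g1, hg1⟩ := (Cfsg.Agent.S5570.result nonab isJ).2.1 X X0 hX.1 hX.2.1 hX.2.2 hX0.1 hX0.2.1 hX0.2.2
  have e1 : cj g1 X = X0 := hg1.symm
  have h1 : cj g1 P ≤ normalizer (X0 : Set 𝒢) := by
    rw [← e1, normalizer_cj]
    exact Subgroup.map_mono hPX
  obtain ⟨n, hn, hn2⟩ := exists_conj_in h1 (P0_le X0_norm) (by rw [card_cj, hP]) card_P0
  rw [cj_cj] at hn2
  have e2 : cj (n * g1) X = X0 := by
    rw [← cj_cj, e1]
    exact cj_eq_iff.2 hn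
  have h2 := inverts_cj hwp (n * g1)
  rw [hn2] at h2
  obtain ⟨j, hj⟩ := exists_pow h2
  set g := f ^ j * (n * g1) with hg
  have e3 : cj g X = X0 := by
    rw [hg, ← cj_cj, e2]
    exact cj_eq_iff.2 (pow_mem X0_norm j)
  have e4 : cj g P = P0 := by
    rw [hg, ← cj_cj, hn2]
    exact cj_eq_iff.2 (le_normalizer (pow_mem (mem_zpowers f) j))
  have e5 : g * w * g⁻¹ = s := by
    rw [← hj, hg]; group
  have e6 : cj g T ≤ X0 := by
    rw [← e3]
    exact Subgroup.map_mono hTX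
  have e7 : f ∈ normalizer (cj g T : Set 𝒢) := by
    have h3 : cj g P ≤ normalizer (cj g T : Set 𝒢) := by
      rw [normalizer_cj]
      exact Subgroup.map_mono hPT
    rw [e4] at h3
    exact h3 (mem_zpowers f)
  have e8 : cj g S = cj g T ⊔ P0 ⊔ zpowers s := by
    rw [← hsup, cj_sup, cj_sup, cj_zpowers, e4, e5]
  rcases eq_Ag_or_Ab e6 (by rw [card_cj, hT]) e7 with h3 | h3
  · exact ⟨g, by rw [e8, h3, SW]⟩
  · exfalso
    have h4 : b0 * s * f ^ 2 ∈ cj g S := by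
      rw [e8, h3]
      have hb : b0 ∈ Ab := by
        have := cf_mem_Ax (x := b0) (k := 0) (by norm_num)
        rwa [cf_zero] at this
      have k1 : b0 ∈ Ab ⊔ P0 ⊔ zpowers s := (le_sup_left : Ab ⊔ P0 ≤ _) ((le_sup_left : Ab ≤ _) hb)
      have k2 : f ∈ Ab ⊔ P0 ⊔ zpowers s := (le_sup_left : Ab ⊔ P0 ≤ _) ((le_sup_right : P0 ≤ _) (mem_zpowers f))
      have k3 : s ∈ Ab ⊔ P0 ⊔ zpowers s := (le_sup_right : zpowers s ≤ _) (mem_zpowers s)
      exact mul_mem (mul_mem k1 k3) (pow_mem k2 2)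
    have h5 := Cfsg.Agent.H858.NormC.orderOf_dvd_of_mem h4
    rw [order_z, card_cj, hS] at h5
    norm_num at h5

/-! ### maximal subgroups -/

theorem eq_normalizer' {M S : Subgroup 𝒢} (hN : NL M S) : M = normalizer (S : Set 𝒢) := by
  have := simple_J
  by_contra h
  have h1 : normalizer (S : Set 𝒢) = ⊤ := hN.coatom.2 _ (lt_of_le_of_ne hN.norm h)
  have h2 : S.Normal := normalizer_eq_top_iff.1 h1
  rcases h2.eq_bot_or_eq_top with h3 | h3
  · apply hN.nab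
    subst h3
    exact ⟨⟨fun a b => Subsingleton.elim _ _⟩⟩
  · exact hN.coatom.1 (top_le_iff.1 (h3 ▸ hN.le))

/-- **S5580, Part III, `L₂(32)`**: the maximal subgroups of `J4` with socle `L₂(32)` form one class -/
theorem one_L232 (hF : Facts geo) {F : Type} [Field F] [Fintype F] (h : Fintype.card F = 32) :
    OneCl (Matrix.ProjectiveSpecialLinearGroup (Fin 2) F) := by
  rintro M S M' S' hN hN' ⟨e⟩ ⟨e'⟩
  obtain ⟨g, hg⟩ := exists_std hF h e
  obtain ⟨g', hg'⟩ := exists_std hF h e'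
  refine ⟨g'⁻¹ * g, ?_⟩
  have h1 : S' = cj (g'⁻¹ * g) S := by
    rw [← cj_cj, hg, ← hg', cj_cj, inv_mul_cancel]
    exact (cj_eq_iff.2 (one_mem _)).symm
  rw [eq_normalizer' hN', eq_normalizer' hN, ← normalizer_cj, ← h1]

end Cfsg.Agent.H763.JM
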