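import Cfsg.Agent.H858.VK

/-!
# Explicit elements of `J4` for the subgroups `L₂(32)` (helper763)

`f` of order 31, the involution `s` inverting `f`, and two subgroups `A_g`, `A_b` of order 32 normalized by `f`,
generated by the conjugates of `i0` and `b0` (words found with the toolkit of helper860).
-/

set_option autoImplicit false

open Cfsg

namespace Cfsg.Agent.H763.JM.L32Words

open Cfsg.Agent.Lib Cfsg.Agent.Lib.F2MatGroup
open Cfsg.Agent.J4.Rep112
open Cfsg.Agent.H858.VK

/-- the program; the environment at the end is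
`z, b5, b4, b3, b2, b1, b0, gi, g, i5, i4, i3, i2, i1, i0, fi, f, s, ui, u, e, a, x, y, Y, t` -/
def slp : List (List ℕ) := [[0, 1, 3, 1], [0, 0, 0, 0, 0, 0, 0], [2, 3, 2, 5, 3, 5, 3, 5, 3, 5, 3, 2, 4, 2, 5, 4, 5, 3], [5, 6, 4, 6, 3, 4, 3, 5, 6, 5, 6, 5, 6, 5, 6, 3, 5, 3], [0, 4, 1], [3, 3, 0, 3, 3, 3, 0], [1, 0, 1], [5, 5, 5, 2, 5, 5, 5, 5, 2, 5, 2, 5, 5], [2, 0, 1], [3, 0, 2], [4, 0, 3], [5, 0, 4], [6, 0, 5], [13, 15, 16, 15, 13, 14, 16, 14, 16, 15, 16, 13, 15, 13, 15, 16, 15, 13, 14, 13, 15, 13, 15, 16, 15], [15, 17, 15, 14, 15, 14, 16, 14, 15, 17, 15, 14, 15, 14, 17, 15, 17, 16, 17, 16, 14, 15, 17, 15, 14], [1, 15, 0, 6], [10, 0, 9], [11, 0, 10], [12, 0, 11], [13, 0, 12], [14, 0, 13], [5, 16, 15, 15]]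

/-- the equations -/
def es : List (List ℕ × List ℕ) :=
  [(List.replicate 31 16, []),
   ([17, 17], []),
   ([17, 16, 17, 16], []),
   ([14, 14], []),
   ([14, 13], [13, 14]),
   ([14, 12], [12, 14]),
   ([14, 11], [11, 14]),
   ([14, 10], [10, 14]),
   ([14, 12, 11, 10, 9], []),
   ([6, 6], []),
   ([6, 5], [5, 6]),
   ([6, 4], [4, 6]),
   ([6, 3], [3, 6]),
   ([6, 2], [2, 6]),
   ([6, 4, 1], []),
   ([6, 14], [14, 6]),
   ([6, 13], [13, 6]),
   ([6, 12], [12, 6]),
   ([6, 11], [11, 6]),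
   ([6, 10], [10, 6]),
   (List.replicate 43 0, []),
   ([16, 15], []),
   ([13], [16, 14, 15]),
   ([12], [16, 13, 15]),
   ([11], [16, 12, 15]),
   ([10], [16, 11, 15]),
   ([9], [16, 10, 15]),
   ([5], [16, 6, 15]),
   ([4], [16, 5, 15]),
   ([3], [16, 4, 15]),
   ([2], [16, 3, 15]),
   ([1], [16, 2, 15]),
   ([0], [6, 17, 16, 16])]

/-- the inequations -/
def ns : List (List ℕ × List ℕ) := [([16], []), ([17], []), ([14], []), ([6], []), ([0], [])]
theorem check : run 112 slp codes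
    (fun L => cond (eqs 112 es L) (neqs 112 ns L) false) = true := by decide +kernel

/-- the environment -/
noncomputable def LX : List Cfsg.Spor.J4 := runG slp gens

/-- the element of order 31 -/
noncomputable def f : Cfsg.Spor.J4 := getG LX 16
/-- the involution inverting `f` -/
noncomputable def s : Cfsg.Spor.J4 := getG LX 17
/-- the generator of `A_g` -/
noncomputable def i0 : Cfsg.Spor.J4 := getG LX 14
/-- the generator of `A_b` -/
noncomputable def b0 : Cfsg.Spor.J4 := getG LX 6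

theorem map_LX : LX.map rho = runG slp (gens.map rho) := by
  unfold LX
  rw [runG_map]

theorem sound : (∀ p ∈ es, evG LX p.1 = evG LX p.2) ∧ (∀ p ∈ ns, evG LX p.1 ≠ evG LX p.2) := by
  obtain ⟨L', h', hk⟩ := run_sound codes_gens check
  have h'' : List.Forall₂ (Codes 112) (LX.map rho) L' := by rw [map_LX]; exact h'
  rcases hb : eqs 112 es L' with _ | _
  · rw [hb] at hk; exact absurd hk Bool.false_ne_true
  rw [hb] at hk
  have hc : neqs 112 ns L' = true := hk
  refine ⟨fun p hp => ?_, fun p hp => ?_⟩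
  · apply rho_injective
    rw [← evG_map, ← evG_map]
    exact eqs_sound h'' hb p hp
  · intro h0
    have h1 := congrArg rho h0
    rw [← evG_map, ← evG_map] at h1
    exact neqs_sound (by norm_num) h'' hc p hp h1

theorem evG_rep {G : Type*} [Group G] (L : List G) (n i : ℕ) : evG L (List.replicate n i) = (getG L i) ^ n := by
  induction n with
  | zero => rw [List.replicate_zero, evG_nil, pow_zero]
  | succ n ih => rw [List.replicate_succ, evG_cons, ih, pow_succ']

/-- the conjugate by `f ^ k` -/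
noncomputable def cf (k : ℕ) (x : Cfsg.Spor.J4) : Cfsg.Spor.J4 := f ^ k * x * (f ^ k)⁻¹

theorem cf_zero (x : Cfsg.Spor.J4) : cf 0 x = x := by
  rw [cf, pow_zero, one_mul, inv_one, mul_one]

theorem cf_succ (k : ℕ) (x : Cfsg.Spor.J4) : cf (k + 1) x = f * cf k x * f⁻¹ := by
  rw [cf, cf, pow_succ']
  group

theorem eqn (n : ℕ) (hn : n < es.length) : evG LX (es[n]).1 = evG LX (es[n]).2 :=
  sound.1 _ (List.getElem_mem hn)

theorem nen (n : ℕ) (hn : n < ns.length) : evG LX (ns[n]).1 ≠ evG LX (ns[n]).2 :=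
  sound.2 _ (List.getElem_mem hn)

theorem f_pow : f ^ 31 = 1 := by
  have h := eqn 0 (by decide)
  change evG LX (List.replicate 31 16) = evG LX [] at h
  rwa [evG_rep, evG_nil] at h

theorem f_ne : f ≠ 1 := by
  have h := nen 0 (by decide)
  change evG LX [16] ≠ evG LX [] at h
  rwa [evG_cons, evG_nil, mul_one] at h

theorem s_ne : s ≠ 1 := by
  have h := nen 1 (by decide)
  change evG LX [17] ≠ evG LX [] at h
  rwa [evG_cons, evG_nil, mul_one] at h

theorem i0_ne : i0 ≠ 1 := by
  have h := nen 2 (by decide)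
  change evG LX [14] ≠ evG LX [] at h
  rwa [evG_cons, evG_nil, mul_one] at h

theorem b0_ne : b0 ≠ 1 := by
  have h := nen 3 (by decide)
  change evG LX [6] ≠ evG LX [] at h
  rwa [evG_cons, evG_nil, mul_one] at h

theorem s_s : s * s = 1 := by
  have h := eqn 1 (by decide)
  change evG LX [17, 17] = evG LX [] at h
  rwa [evG_cons, evG_cons, evG_nil, mul_one] at h

theorem s_f : s * f * s = f⁻¹ := by
  have h := eqn 2 (by decide)
  change evG LX [17, 16, 17, 16] = evG LX [] at h
  rw [evG_cons, evG_cons, evG_cons, evG_cons, evG_nil, mul_one] at h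
  refine eq_inv_of_mul_eq_one_left ?_
  rw [← h]
  simp only [mul_assoc]
  rfl

theorem fi_eq : getG LX 15 = f⁻¹ := by
  have h := eqn 21 (by decide)
  change evG LX [16, 15] = evG LX [] at h
  rw [evG_cons, evG_cons, evG_nil, mul_one] at h
  exact eq_inv_of_mul_eq_one_right h

theorem step (m j k : ℕ) (x : Cfsg.Spor.J4) (h : evG LX [m] = evG LX [16, j, 15]) (hj : getG LX j = cf k x) :
    getG LX m = cf (k + 1) x := by
  rw [evG_cons, evG_nil, mul_one, evG_cons, evG_cons, evG_cons, evG_nil, mul_one, hj, fi_eq] at h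
  rw [h, cf_succ, mul_assoc]
  rfl

theorem i_0 : getG LX 14 = cf 0 i0 := (cf_zero _).symm
theorem i_1 : getG LX 13 = cf 1 i0 := step 13 14 0 i0 (eqn 22 (by decide)) i_0
theorem i_2 : getG LX 12 = cf 2 i0 := step 12 13 1 i0 (eqn 23 (by decide)) i_1
theorem i_3 : getG LX 11 = cf 3 i0 := step 11 12 2 i0 (eqn 24 (by decide)) i_2
theorem i_4 : getG LX 10 = cf 4 i0 := step 10 11 3 i0 (eqn 25 (by decide)) i_3
theorem i_5 : getG LX 9 = cf 5 i0 := step 9 10 4 i0 (eqn 26 (by decide)) i_4
theorem b_0 : getG LX 6 = cf 0 b0 := (cf_zero _).symm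
theorem b_1 : getG LX 5 = cf 1 b0 := step 5 6 0 b0 (eqn 27 (by decide)) b_0
theorem b_2 : getG LX 4 = cf 2 b0 := step 4 5 1 b0 (eqn 28 (by decide)) b_1
theorem b_3 : getG LX 3 = cf 3 b0 := step 3 4 2 b0 (eqn 29 (by decide)) b_2
theorem b_4 : getG LX 2 = cf 4 b0 := step 2 3 3 b0 (eqn 30 (by decide)) b_3
theorem b_5 : getG LX 1 = cf 5 b0 := step 1 2 4 b0 (eqn 31 (by decide)) b_4

theorem two {m j m' j' : ℕ} (h : evG LX [m, j] = evG LX [m', j']) :
    getG LX m * getG LX j = getG LX m' * getG LX j' := by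
  rwa [evG_cons, evG_cons, evG_nil, mul_one, evG_cons, evG_cons, evG_nil, mul_one] at h

theorem i0_sq : i0 * i0 = 1 := by
  have h := eqn 3 (by decide)
  change evG LX [14, 14] = evG LX [] at h
  rwa [evG_cons, evG_cons, evG_nil, mul_one] at h

theorem b0_sq : b0 * b0 = 1 := by
  have h := eqn 9 (by decide)
  change evG LX [6, 6] = evG LX [] at h
  rwa [evG_cons, evG_cons, evG_nil, mul_one] at h

theorem i0_comm : ∀ k < 5, i0 * cf k i0 = cf k i0 * i0 := by
  intro k hk
  have h1 := two (eqn 4 (by decide))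
  have h2 := two (eqn 5 (by decide))
  have h3 := two (eqn 6 (by decide))
  have h4 := two (eqn 7 (by decide))
  rw [i_1] at h1
  rw [i_2] at h2
  rw [i_3] at h3
  rw [i_4] at h4
  interval_cases k
  · rw [cf_zero]
  · exact h1
  · exact h2
  · exact h3
  · exact h4

theorem b0_comm : ∀ k < 5, b0 * cf k b0 = cf k b0 * b0 := by
  intro k hk
  have h1 := two (eqn 10 (by decide))
  have h2 := two (eqn 11 (by decide))
  have h3 := two (eqn 12 (by decide))
  have h4 := two (eqn 13 (by decide))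
  rw [b_1] at h1
  rw [b_2] at h2
  rw [b_3] at h3
  rw [b_4] at h4
  interval_cases k
  · rw [cf_zero]
  · exact h1
  · exact h2
  · exact h3
  · exact h4

theorem b0_i_comm : ∀ k < 5, b0 * cf k i0 = cf k i0 * b0 := by
  intro k hk
  have h0 := two (eqn 15 (by decide))
  have h1 := two (eqn 16 (by decide))
  have h2 := two (eqn 17 (by decide))
  have h3 := two (eqn 18 (by decide))
  have h4 := two (eqn 19 (by decide))
  rw [i_0] at h0
  rw [i_1] at h1
  rw [i_2] at h2
  rw [i_3] at h3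
  rw [i_4] at h4
  interval_cases k
  · exact h0
  · exact h1
  · exact h2
  · exact h3
  · exact h4

theorem i0_rel : i0 * cf 2 i0 * cf 3 i0 * cf 4 i0 * cf 5 i0 = 1 := by
  have h := eqn 8 (by decide)
  change evG LX [14, 12, 11, 10, 9] = evG LX [] at h
  rw [evG_cons, evG_cons, evG_cons, evG_cons, evG_cons, evG_nil, mul_one, i_2, i_3, i_4, i_5] at h
  simp only [mul_assoc]
  exact h

theorem b0_rel : b0 * cf 2 b0 * cf 5 b0 = 1 := by
  have h := eqn 14 (by decide)
  change evG LX [6, 4, 1] = evG LX [] at h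
  rw [evG_cons, evG_cons, evG_cons, evG_nil, mul_one, b_2, b_5] at h
  simp only [mul_assoc]
  exact h

theorem z_eq : getG LX 0 = b0 * s * f ^ 2 := by
  have h := eqn 32 (by decide)
  change evG LX [0] = evG LX [6, 17, 16, 16] at h
  rw [evG_cons, evG_nil, mul_one, evG_cons, evG_cons, evG_cons, evG_cons, evG_nil, mul_one] at h
  rw [h, pow_two]
  simp only [mul_assoc]
  rfl

/-- **`b0 * s * f ^ 2` has order 43** -/
theorem order_z : orderOf (b0 * s * f ^ 2) = 43 := by
  have : Fact (Nat.Prime 43) := ⟨by norm_num⟩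
  rw [← z_eq]
  refine orderOf_eq_prime ?_ ?_
  · have h := eqn 20 (by decide)
    change evG LX (List.replicate 43 0) = evG LX [] at h
    rwa [evG_rep, evG_nil] at h
  · have h := nen 4 (by decide)
    change evG LX [0] ≠ evG LX [] at h
    rwa [evG_cons, evG_nil, mul_one] at h

theorem order_f : orderOf f = 31 := by
  have : Fact (Nat.Prime 31) := ⟨by norm_num⟩
  exact orderOf_eq_prime f_pow f_ne

end Cfsg.Agent.H763.JM.L32Words
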