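import Mathlib

/-!
# A 2-subgroup of `SL₅(2)` normalized by an element of order 31 is trivial (helper763)
-/

set_option autoImplicit false

namespace Cfsg.Agent.H763.JM.Singer

open Matrix MulAction

/-- the group -/
abbrev SL5 := SpecialLinearGroup (Fin 5) (ZMod 2)
/-- the natural module -/
abbrev V5 := Fin 5 → ZMod 2

/-- the natural action -/
@[reducible] def act : MulAction SL5 V5 where
  smul A v := A.1 *ᵥ v
  one_smul v := Matrix.one_mulVec v
  mul_smul A B v := (Matrix.mulVec_mulVec v A.1 B.1).symm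

theorem card_V5 : Nat.card V5 = 32 := by
  rw [Nat.card_eq_fintype_card, Fintype.card_fun, ZMod.card, Fintype.card_fin]
  norm_num

theorem smul_zero' (A : SL5) : act.smul A (0 : V5) = 0 := Matrix.mulVec_zero A.1

theorem eq_one {A : SL5} (h : ∀ v : V5, act.smul A v = v) : A = 1 := by
  apply Subtype.ext
  ext i j
  have h1 := congrFun (h (Pi.single j 1)) i
  have h2 : act.smul A (Pi.single j 1) i = A.1 i j := by
    change (A.1 *ᵥ Pi.single j 1) i = A.1 i j
    rw [Matrix.mulVec_single_one]
    rfl
  rw [h2] at h1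
  rw [h1]
  change (Pi.single j 1 : V5) i = (1 : Matrix (Fin 5) (Fin 5) (ZMod 2)) i j
  rw [Matrix.one_apply, Pi.single_apply]

/-- **no nontrivial 2-subgroup of `SL₅(2)` is normalized by an element of order 31** -/
theorem eq_bot {f : SL5} (hf : orderOf f = 31) {R : Subgroup SL5} (hR : IsPGroup 2 R)
    (hn : f ∈ Subgroup.normalizer (R : Set SL5)) : R = ⊥ := by
  classical
  let _ : MulAction SL5 V5 := act
  have h2 : Fact (Nat.Prime 2) := ⟨Nat.prime_two⟩
  have h31 : Fact (Nat.Prime 31) := ⟨by norm_num⟩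
  have hsm : ∀ A : SL5, A • (0 : V5) = 0 := smul_zero'
  -- a nonzero fixed vector of `R`
  have c1 := hR.card_modEq_card_fixedPoints V5
  rw [card_V5] at c1
  have z1 : (0 : V5) ∈ fixedPoints R V5 := fun r => hsm r
  obtain ⟨v, hv, hv0⟩ : ∃ v ∈ fixedPoints R V5, v ≠ 0 := by
    by_contra hno
    push Not at hno
    have h3 : fixedPoints R V5 = {0} := by
      ext w
      rw [Set.mem_singleton_iff]
      exact ⟨hno w, fun h => h ▸ z1⟩
    rw [h3] at c1
    have h4 : Nat.card ({0} : Set V5) = 1 := by simp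
    rw [h4] at c1
    exact absurd c1 (by decide)
  -- the fixed vectors of `f`
  have hF : IsPGroup 31 (Subgroup.zpowers f) := IsPGroup.of_card (n := 1) (by rw [Nat.card_zpowers, hf, pow_one])
  have c2 := hF.card_modEq_card_fixedPoints V5
  rw [card_V5] at c2
  have z2 : (0 : V5) ∈ fixedPoints (Subgroup.zpowers f) V5 := fun r => hsm r
  have hle : Nat.card (fixedPoints (Subgroup.zpowers f) V5) ≤ 32 := by
    rw [← card_V5]
    exact Nat.card_le_card_of_injective _ Subtype.val_injective
  have hfix : Nat.card (fixedPoints (Subgroup.zpowers f) V5) = 1 := by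
    have h3 : Nat.card (fixedPoints (Subgroup.zpowers f) V5) % 31 = 1 := by
      have h4 : 32 % 31 = Nat.card (fixedPoints (Subgroup.zpowers f) V5) % 31 := c2
      omega
    have h4 : Nat.card (fixedPoints (Subgroup.zpowers f) V5) = 1 ∨
        Nat.card (fixedPoints (Subgroup.zpowers f) V5) = 32 := by omega
    rcases h4 with h4 | h4
    · exact h4
    · exfalso
      have h5 : fixedPoints (Subgroup.zpowers f) V5 = Set.univ := by
        apply Set.eq_of_subset_of_ncard_le (Set.subset_univ _)
        rw [Set.ncard_univ, card_V5, ← Nat.card_coe_set_eq, h4]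
      have h6 : f = 1 := by
        apply eq_one
        intro w
        have h7 : w ∈ fixedPoints (Subgroup.zpowers f) V5 := h5 ▸ Set.mem_univ w
        exact h7 ⟨f, Subgroup.mem_zpowers f⟩
      rw [h6, orderOf_one] at hf
      norm_num at hf
  have hvF : v ∉ fixedPoints (Subgroup.zpowers f) V5 := by
    intro h3
    obtain ⟨w, hw⟩ := Nat.card_eq_one_iff_exists.1 hfix
    have h4 := hw ⟨v, h3⟩
    have h5 := hw ⟨0, z2⟩
    exact hv0 (congrArg Subtype.val (h4.trans h5.symm))
  -- the orbit of `v`
  obtain ⟨n, hn1⟩ := hF.card_orbit v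
  have hn0 : n ≠ 0 := by
    rintro rfl
    rw [pow_zero] at hn1
    apply hvF
    intro g
    obtain ⟨w, hw⟩ := Nat.card_eq_one_iff_exists.1 hn1
    have h4 := hw ⟨g • v, MulAction.mem_orbit v g⟩
    have h5 := hw ⟨v, MulAction.mem_orbit_self v⟩
    exact congrArg Subtype.val (h4.trans h5.symm)
  have h31' : 31 ≤ Nat.card (orbit (Subgroup.zpowers f) v) := by
    rw [hn1]
    calc 31 = 31 ^ 1 := (pow_one _).symm
      _ ≤ 31 ^ n := Nat.pow_le_pow_right (by norm_num) (Nat.pos_of_ne_zero hn0)
  -- the orbit consists of fixed vectors of `R`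
  have hsub : orbit (Subgroup.zpowers f) v ⊆ fixedPoints R V5 \ {0} := by
    rintro _ ⟨g, rfl⟩
    have hgN : (g : SL5) ∈ Subgroup.normalizer (R : Set SL5) := by
      have h3 : Subgroup.zpowers f ≤ Subgroup.normalizer (R : Set SL5) := by
        rw [Subgroup.zpowers_le]; exact hn
      exact h3 g.2
    constructor
    · intro r
      have h3 : (g : SL5)⁻¹ * r * g ∈ R := by
        have h4 := (Subgroup.mem_normalizer_iff.1 ((Subgroup.normalizer (R : Set SL5)).inv_mem hgN) r).1 r.2
        rwa [inv_inv] at h4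
      have h4 : ((g : SL5)⁻¹ * r * g) • v = v := hv ⟨_, h3⟩
      have h5 : (r : SL5) * g = (g : SL5) * ((g : SL5)⁻¹ * r * g) := by group
      change (r : SL5) • ((g : SL5) • v) = (g : SL5) • v
      rw [← mul_smul, h5, mul_smul, h4]
    · intro h3
      rw [Set.mem_singleton_iff] at h3
      apply hv0
      have h4 : v = (g : SL5)⁻¹ • ((g : SL5) • v) := by rw [inv_smul_smul]
      rw [h4]
      change (g : SL5)⁻¹ • ((g : SL5) • v) = 0
      have h5 : (g : SL5) • v = 0 := h3
      rw [h5, hsm]
  have hcard : 32 ≤ (fixedPoints R V5).ncard := by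
    have h3 : (fixedPoints R V5 \ {0}).ncard + 1 = (fixedPoints R V5).ncard :=
      Set.ncard_sdiff_singleton_add_one z1 (Set.toFinite _)
    have h4 := Set.ncard_le_ncard hsub (Set.toFinite _)
    rw [← Nat.card_coe_set_eq] at h4
    omega
  have huniv : fixedPoints R V5 = Set.univ := by
    apply Set.eq_of_subset_of_ncard_le (Set.subset_univ _)
    rw [Set.ncard_univ, card_V5]
    exact hcard
  rw [Subgroup.eq_bot_iff_forall]
  intro r hr
  apply eq_one
  intro w
  have h7 : w ∈ fixedPoints R V5 := huniv ▸ Set.mem_univ w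
  exact h7 ⟨r, hr⟩

end Cfsg.Agent.H763.JM.Singer
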