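import Cfsg.Agent.H763.JM.Singer
import Cfsg.Agent.H860.JM.PartOne
import Cfsg.Agent.H860.JM.Basic
import Cfsg.Agent.H859.BigNum
import Cfsg.Agent.H859.PrimeSub
import Cfsg.Agent.H866.OddTools
import Cfsg.Agent.StdL2.G23Coset
import Cfsg.Agent.S5570

/-!
# The 2-subgroups of `J4` normalized by a subgroup of order 31 (helper763)

Every 2-subgroup `Y ≠ 1` normalized by a subgroup `P` of order 31 is contained in a self-centralizing elementary
abelian group `X` of order `2^10` normalized by `P`.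
-/

set_option autoImplicit false

namespace Cfsg.Agent.H763.JM

open Subgroup Cfsg Cfsg.Agent.H860.JM

/-- (Part I without maximality) a 2-subgroup containing its centralizer -/
theorem good_of_self {G : Type*} [Group G] [Finite G] (Γ : Geom G) (h : Facts Γ) {Q : Subgroup G}
    (hQ : IsPGroup 2 Q) (hbot : Q ≠ ⊥) (hself : centralizer (Q : Set G) ≤ Q) :
    Good Γ (normalizer (Q : Set G)) := by
  have hloc : Loc (normalizer (Q : Set G)) Q (H172.JM.om Q) :=
    { pgroup := hQ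
      E_ne := H172.JM.om_ne_bot hQ hbot
      E_le := fun x hx => hx.1
      el := ⟨fun a ha => ha.2.1, fun a ha b hb => hb.2.2 a ha.1⟩
      cent := fun x hx e he => he.2.2 x hx
      self := hself
      mem := by
        intro e he hc
        refine ⟨hself ?_, he, hc⟩
        rw [mem_centralizer_iff]
        exact hc
      normQ := le_rfl
      normE := H172.JM.le_normalizer_om le_rfl }
  by_cases hE : ∀ u ∈ H172.JM.om Q, u ≠ 1 → Γ.A u
  · exact H546.JM.caseA Γ h (H172.JM.ll Γ h) (H172.JM.pt Γ h) _ Q _ hloc hE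
  · push Not at hE
    obtain ⟨u, hu, hu1, huA⟩ := hE
    exact H322.JM.caseB Γ h (H172.JM.ll Γ h) (H172.JM.pt Γ h) (l3 Γ h) _ Q _ hloc
      ⟨u, hu, (h.f1.invol u hu1 hu.2.1).resolve_left huA⟩

/-- a 2-subgroup normalized by `P` is contained in a radical 2-subgroup normalized by `P` -/
theorem exists_radical {G : Type*} [Group G] [Finite G] {P Y : Subgroup G} (hY : IsPGroup 2 Y)
    (hn : P ≤ normalizer (Y : Set G)) : ∃ Q : Subgroup G, IsPGroup 2 Q ∧ Y ≤ Q ∧ P ≤ normalizer (Q : Set G) ∧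
      Q = (pCore 2 (normalizer (Q : Set G) : Subgroup G)).map (normalizer (Q : Set G)).subtype := by
  have : Fact (Nat.Prime 2) := ⟨Nat.prime_two⟩
  obtain ⟨Q, hQ⟩ := (Set.toFinite {Q : Subgroup G | IsPGroup 2 Q ∧ Y ≤ Q ∧
    P ≤ normalizer (Q : Set G)}).exists_maximal ⟨Y, hY, le_rfl, hn⟩
  obtain ⟨h1, h2, h3⟩ := hQ.prop
  refine ⟨Q, h1, h2, h3, ?_⟩
  have h4 : Q ≤ (pCore 2 (normalizer (Q : Set G) : Subgroup G)).map (normalizer (Q : Set G)).subtype :=
    Lib.LocalCore.le_map_pCore le_normalizer h1 le_rfl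
  refine le_antisymm h4 (hQ.le_of_ge ⟨Lib.LocalCore.isPGroup_map_pCore 2 _, h2.trans h4, ?_⟩ h4)
  exact h3.trans (Lib.LocalCore.le_normalizer_map_pCore 2 _)

/-- the group `Spor.J4` -/
local notation "𝒢" => Cfsg.Spor.J4

theorem p31 : Nat.Prime 31 := by norm_num

theorem cent31 {P : Subgroup 𝒢} (hP : Nat.card P = 31) : centralizer (P : Set 𝒢) = P := by
  have := finite_J
  exact Cfsg.Agent.H859.PrimeSub.centralizer_eq p31 hP (Cfsg.Agent.H859.BigNum.data31 hP).1

theorem isPGroup31 {P : Subgroup 𝒢} (hP : Nat.card P = 31) : IsPGroup 31 P :=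
  IsPGroup.of_card (n := 1) (by rw [hP, pow_one])

/-- a 2-subgroup meets a subgroup of order 31 trivially -/
theorem inf_eq_bot {P D : Subgroup 𝒢} (hP : Nat.card P = 31) (hD : IsPGroup 2 D) : D ⊓ P = ⊥ := by
  have := finite_J
  have h2 : Fact (Nat.Prime 2) := ⟨Nat.prime_two⟩
  have h31 : Fact (Nat.Prime 31) := ⟨p31⟩
  rw [← disjoint_iff]
  exact IsPGroup.disjoint_of_ne 2 31 (by norm_num) _ _ hD (isPGroup31 hP)

/-- the order of a 2-subgroup normalized by `P` -/
theorem card_mod31 {P D : Subgroup 𝒢} (hP : Nat.card P = 31) (hD : IsPGroup 2 D)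
    (hn : P ≤ normalizer (D : Set 𝒢)) : Nat.card D % 31 = 1 := by
  have := finite_J
  have h31 : Fact (Nat.Prime 31) := ⟨p31⟩
  exact Cfsg.Agent.H866.OddTools.card_mod_one (isPGroup31 hP) hn (by rw [cent31 hP]; exact inf_eq_bot hP hD)

/-- the 2-subgroups of `N(X)` normalized by `P` -/
theorem le_of_norm {X P Q : Subgroup 𝒢} (hX : geo.Xc X) (hP : Nat.card P = 31)
    (hPX : P ≤ normalizer (X : Set 𝒢)) (hQ : IsPGroup 2 Q) (hQX : Q ≤ normalizer (X : Set 𝒢))
    (hPQ : P ≤ normalizer (Q : Set 𝒢)) : Q ≤ X := by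
  have := finite_J
  have := simple_J
  have h2 : Fact (Nat.Prime 2) := ⟨Nat.prime_two⟩
  have h31 : Fact (Nat.Prime 31) := ⟨p31⟩
  obtain ⟨⟨B, hB1, hB2, hB3, ⟨e⟩⟩, -⟩ := (Cfsg.Agent.S5570.result nonab isJ).2.2 X hX.1 hX.2.1 hX.2.2
  set N := normalizer (X : Set 𝒢) with hN
  have hXN : X ≤ N := le_normalizer
  have hnorm : (X.subgroupOf N).Normal := (normal_subgroupOf_iff_le_normalizer hXN).2 le_rfl
  have hcomp : IsComplement' (B.subgroupOf N) (X.subgroupOf N) := by
    apply isComplement'_of_card_mul_and_disjoint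
    · have h1 := Cfsg.Agent.StdL2.G23Coset.card_sup_mul_card_inf hB1
      rw [hB3, hB2, Subgroup.card_bot, mul_one] at h1
      rw [Nat.card_congr (subgroupOfEquivOfLe hB1).toEquiv, Nat.card_congr (subgroupOfEquivOfLe hXN).toEquiv]
      exact h1.symm
    · rw [disjoint_iff]
      have h1 : B.subgroupOf N ⊓ X.subgroupOf N = (B ⊓ X).subgroupOf N := (comap_inf B X N.subtype).symm
      rw [h1, hB2]
      exact Subgroup.bot_subgroupOf _
  let φ : N →* Singer.SL5 := e.toMonoidHom.comp ((subgroupOfEquivOfLe hB1).toMonoidHom.comp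
    (hcomp.QuotientMulEquiv.toMonoidHom.comp (QuotientGroup.mk' (X.subgroupOf N))))
  have hker : ∀ n : N, φ n = 1 → (n : 𝒢) ∈ X := by
    intro n hn
    have h1 : (QuotientGroup.mk' (X.subgroupOf N)) n = 1 := by
      apply hcomp.QuotientMulEquiv.injective
      apply (subgroupOfEquivOfLe hB1).injective
      apply e.injective
      rw [map_one, map_one, map_one]
      exact hn
    rw [QuotientGroup.mk'_apply, QuotientGroup.eq_one_iff] at h1
    exact h1
  have hX2 : IsPGroup 2 X := IsPGroup.of_card hX.2.1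
  obtain ⟨p, hp⟩ := exists_prime_orderOf_dvd_card' (G := P) 31 (by rw [hP])
  have hpN : (p : 𝒢) ∈ N := hPX p.2
  have hf : orderOf (φ ⟨p, hpN⟩) = 31 := by
    apply orderOf_eq_prime
    · rw [← map_pow]
      have h1 : (⟨p, hpN⟩ : N) ^ 31 = 1 := by
        apply Subtype.ext
        have h3 : p ^ 31 = 1 := by rw [← hp, pow_orderOf_eq_one]
        have h4 : (p : 𝒢) ^ 31 = 1 := by rw [← Subgroup.coe_pow, h3, Subgroup.coe_one]
        exact h4
      rw [h1, map_one]
    · intro h1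
      have h3 : (p : 𝒢) ∈ X ⊓ P := ⟨hker _ h1, p.2⟩
      rw [inf_eq_bot hP hX2, mem_bot] at h3
      have h4 : p = 1 := Subtype.ext h3
      rw [h4, orderOf_one] at hp
      norm_num at hp
  have hR : IsPGroup 2 ((Q.subgroupOf N).map φ) := hQ.comap_subtype.map φ
  have hfn : φ ⟨p, hpN⟩ ∈ normalizer (((Q.subgroupOf N).map φ : Subgroup Singer.SL5) : Set Singer.SL5) := by
    have h1 : (⟨p, hpN⟩ : N) ∈ normalizer ((Q.subgroupOf N : Subgroup N) : Set N) := by
      have h3 := hPQ p.2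
      rw [mem_normalizer_iff] at h3 ⊢
      intro x
      exact h3 x
    exact Subgroup.le_normalizer_map φ (mem_map_of_mem φ h1)
  have hbot := Singer.eq_bot hf hR hfn
  intro q hq
  apply hker ⟨q, hQX hq⟩
  have h1 : φ ⟨q, hQX hq⟩ ∈ (Q.subgroupOf N).map φ := mem_map_of_mem φ (by
    rw [mem_subgroupOf]; exact hq)
  rwa [hbot, mem_bot] at h1

/-- **a nontrivial 2-subgroup normalized by a subgroup `P` of order 31 is contained in a group `X = 2^10`
normalized by `P`** -/
theorem exists_X (hF : Facts geo) {P Y : Subgroup 𝒢} (hP : Nat.card P = 31) (hY : IsPGroup 2 Y) (hY1 : Y ≠ ⊥)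
    (hn : P ≤ normalizer (Y : Set 𝒢)) : ∃ X, geo.Xc X ∧ P ≤ normalizer (X : Set 𝒢) ∧ Y ≤ X := by
  have := finite_J
  obtain ⟨Q, hQ, hYQ, hPQ, hrad⟩ := exists_radical hY hn
  have hbot : Q ≠ ⊥ := fun h => hY1 (le_bot_iff.1 (h ▸ hYQ))
  have hself := H172.JM.centralizer_le_core hF hrad hbot rfl
  rcases good_of_self geo hF hQ hbot hself with ⟨z, hz, h1⟩ | ⟨D, hD, h1⟩ | ⟨D, hD, h1⟩ | ⟨X, hX, h1⟩
  · exfalso
    obtain ⟨hz1, hz2⟩ := hF.f1.A_inv z hz
    have h2 : z ∈ centralizer (P : Set 𝒢) := by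
      rw [mem_centralizer_iff]
      intro p hp
      exact mem_centralizer_singleton_iff.1 (h1 (hPQ hp))
    rw [cent31 hP] at h2
    have h3 : z ^ 31 = 1 := by
      have h4 := pow_card_eq_one' (x := (⟨z, h2⟩ : P))
      rw [hP] at h4
      exact congrArg Subtype.val h4
    apply hz1
    have h5 : z ^ 31 = z * (z * z) ^ 15 := by
      rw [← pow_two, ← pow_mul, ← pow_succ']
    rw [h5, hz2, one_pow, mul_one] at h3
    exact h3
  · exfalso
    have h2 := card_mod31 hP (IsPGroup.of_card (hF.f3.card D hD)) (hPQ.trans h1)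
    rw [hF.f3.card D hD] at h2
    norm_num at h2
  · exfalso
    have h2 := card_mod31 hP (IsPGroup.of_card (n := 3) (hF.f6.card D hD)) (hPQ.trans h1)
    rw [hF.f6.card D hD] at h2
    norm_num at h2
  · refine ⟨X, hX, hPQ.trans h1, hYQ.trans ?_⟩
    exact le_of_norm hX hP (hPQ.trans h1) hQ (le_normalizer.trans h1) hPQ

end Cfsg.Agent.H763.JM
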